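import Cfsg.Agent.Loc3.PD

/-! Elements of the alternating group of degree twelve, and the twisting element `g`. -/

set_option autoImplicit false
set_option synthInstance.maxSize 100000
set_option synthInstance.maxHeartbeats 400000

namespace Cfsg.Agent.HNL

open Subgroup Equiv Cfsg.Agent.Comp Cfsg.Agent.Loc3

abbrev A12 := alternatingGroup (Fin 12)

/-- the even permutation whose value at `i` is the hexadecimal digit number `i` of `c` -/
noncomputable def pm (c : ℕ) : A12 :=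
  if h : validB 12 c = true ∧ oddc 12 c = false then ⟨dec ⟨c, validB_iff.1 h.1⟩,
    (bdAlt (dec ⟨c, validB_iff.1 h.1⟩)).h.1 (by simp [h.2, not'])⟩ else 1

noncomputable def pmc (c : ℕ) : ℕ :=
  force c fun c => ite' (and' (validB 12 c) (not' (oddc 12 c))) c (onec 12)

instance pvPm (c : ℕ) : PV (pm c).1 (pmc c) := ⟨by
  rw [pmc, force_eq, ite'_eq, pm]
  by_cases h : validB 12 c = true ∧ oddc 12 c = false
  · rw [dif_pos h, if_pos (by simp [h.1, h.2, and', not'])]
    exact (pvDec ⟨c, validB_iff.1 h.1⟩).h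
  · rw [dif_neg h, if_neg (by simpa [not'_eq_true] using h)]
    exact onec_enc⟩

set_option synthInstance.checkSynthOrder false in
instance pdLt (n : ℕ) {p : ℕ → Prop} {f : ℕ → Bool} [∀ k, BD (p k) (f k)] :
    BD (∀ k < n, p k) (allLT n f) := ⟨by simp only [allLT_iff, BD.h (p := p _)]⟩

set_option synthInstance.checkSynthOrder false in
instance pdExLt (n : ℕ) {p : ℕ → Prop} {f : ℕ → Bool} [∀ k, BD (p k) (f k)] :
    BD (∃ k < n, p k) (anyLT n f) := ⟨by simp only [anyLT_iff, BD.h (p := p _)]⟩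

instance pdNat (a b : ℕ) : BD (a = b) (Nat.beq a b) := ⟨beq_iff a b⟩

instance pdBool (a : Bool) : BD (a = true) a := ⟨Iff.rfl⟩

instance pdFalse (a : Bool) : BD (a = false) (not' a) := ⟨by cases a <;> simp [not']⟩

set_option synthInstance.checkSynthOrder false in
/-- search over the centralizer of two elements -/
instance (priority := 10100) pdComm₂ {p : A12 → Prop} {f : PC 12 → Bool} (s t : A12) {a b : ℕ}
    [PV s.1 a] [PV t.1 b] [∀ x, BD (∀ h, Commute (⟨dec x, h⟩ : A12) s ∧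
      Commute (⟨dec x, h⟩ : A12) t → p ⟨dec x, h⟩) (f x)] :
    BD (∀ σ, Commute σ s ∧ Commute σ t → p σ) (force a fun a => force b fun b => bt 12
      (fun k d => and' (okC 0 k d) (and' (okI a a k d) (okI b b k d))) (wrap f) 12 0 0 0) := by
  rw [force_eq, force_eq]
  exact bd_okS _ fun _ h _ hk => (and'_eq_true ..).2
    ⟨okI_of (congrArg Subtype.val h.1.eq) hk, okI_of (congrArg Subtype.val h.2.eq) hk⟩

set_option synthInstance.checkSynthOrder false in
/-- search over the centralizer of three elements -/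
instance (priority := 10200) pdComm₃ {p : A12 → Prop} {f : PC 12 → Bool} (s t u : A12) {a b c : ℕ}
    [PV s.1 a] [PV t.1 b] [PV u.1 c] [∀ x, BD (∀ h, Commute (⟨dec x, h⟩ : A12) s ∧
      Commute (⟨dec x, h⟩ : A12) t ∧ Commute (⟨dec x, h⟩ : A12) u → p ⟨dec x, h⟩) (f x)] :
    BD (∀ σ, Commute σ s ∧ Commute σ t ∧ Commute σ u → p σ) (force a fun a => force b fun b =>
      force c fun c => bt 12 (fun k d => and' (okC 0 k d) (and' (okI a a k d) (and' (okI b b k d)
        (okI c c k d)))) (wrap f) 12 0 0 0) := by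
  rw [force_eq, force_eq, force_eq]
  exact bd_okS _ fun _ h _ hk => (and'_eq_true ..).2
    ⟨okI_of (congrArg Subtype.val h.1.eq) hk, (and'_eq_true ..).2
      ⟨okI_of (congrArg Subtype.val h.2.1.eq) hk, okI_of (congrArg Subtype.val h.2.2.eq) hk⟩⟩

/-- `(0 1 2)` -/
noncomputable def w1 : A12 := pm 0xba9876543021

instance pv_w1 : PV w1.1 0xba9876543021 := PV.of_beq (σ := (pm 0xba9876543021).1) _ (by decide +kernel)

/-- `(3 4 5)` -/
noncomputable def w2 : A12 := pm 0xba9876354210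

instance pv_w2 : PV w2.1 0xba9876354210 := PV.of_beq (σ := (pm 0xba9876354210).1) _ (by decide +kernel)

/-- `(6 7 8)` -/
noncomputable def w3 : A12 := pm 0xba9687543210

instance pv_w3 : PV w3.1 0xba9687543210 := PV.of_beq (σ := (pm 0xba9687543210).1) _ (by decide +kernel)

/-- `(9 10 11)` -/
noncomputable def w4 : A12 := pm 0x9ba876543210

instance pv_w4 : PV w4.1 0x9ba876543210 := PV.of_beq (σ := (pm 0x9ba876543210).1) _ (by decide +kernel)

/-- `(0 3)(1 4)(2 5)(6 7)` -/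
noncomputable def tt : A12 := pm 0xba9867210543

instance pv_tt : PV tt.1 0xba9867210543 := PV.of_beq (σ := (pm 0xba9867210543).1) _ (by decide +kernel)

/-- `(0 1 2)(3 4 5)` -/
noncomputable def yy : A12 := pm 0xba9876354021

instance pv_yy : PV yy.1 0xba9876354021 := PV.of_beq (σ := (pm 0xba9876354021).1) _ (by decide +kernel)

/-- `(0 1 2)(3 5 4)` -/
noncomputable def y2 : A12 := pm 0xba9876435021

instance pv_y2 : PV y2.1 0xba9876435021 := PV.of_beq (σ := (pm 0xba9876435021).1) _ (by decide +kernel)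

/-- `(8 9)(10 11)` -/
noncomputable def v1 : A12 := pm 0xab8976543210

instance pv_v1 : PV v1.1 0xab8976543210 := PV.of_beq (σ := (pm 0xab8976543210).1) _ (by decide +kernel)

/-- `(8 10)(9 11)` -/
noncomputable def v2 : A12 := pm 0x98ba76543210

instance pv_v2 : PV v2.1 0x98ba76543210 := PV.of_beq (σ := (pm 0x98ba76543210).1) _ (by decide +kernel)

/-- `(0 3)(1 4)` -/
noncomputable def a1 : A12 := pm 0xba9876510243

instance pv_a1 : PV a1.1 0xba9876510243 := PV.of_beq (σ := (pm 0xba9876510243).1) _ (by decide +kernel)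

/-- `(1 4)(2 5)` -/
noncomputable def a2 : A12 := pm 0xba9876213540

instance pv_a2 : PV a2.1 0xba9876213540 := PV.of_beq (σ := (pm 0xba9876213540).1) _ (by decide +kernel)

/-- `(0 1)(2 6)(3 4)(5 7)` -/
noncomputable def p1 : A12 := pm 0xba9852734601

instance pv_p1 : PV p1.1 0xba9852734601 := PV.of_beq (σ := (pm 0xba9852734601).1) _ (by decide +kernel)

/-- `(0 6)(1 2)(3 7)(4 5)` -/
noncomputable def p2 : A12 := pm 0xba9830457126

instance pv_p2 : PV p2.1 0xba9830457126 := PV.of_beq (σ := (pm 0xba9830457126).1) _ (by decide +kernel)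

/-- `(0 1)(3 4)` -/
noncomputable def s3 : A12 := pm 0xba9876534201

instance pv_s3 : PV s3.1 0xba9876534201 := PV.of_beq (σ := (pm 0xba9876534201).1) _ (by decide +kernel)

/-- `(0 1)(3 4)(6 7)(9 10)` -/
noncomputable def e0 : A12 := pm 0xb9a867534201

instance pv_e0 : PV e0.1 0xb9a867534201 := PV.of_beq (σ := (pm 0xb9a867534201).1) _ (by decide +kernel)

/-- `a1 ^ i₀ * a2 ^ i₁ * p1 ^ i₂ * p2 ^ i₃` for the last four binary digits of `i` -/
noncomputable def rho (i : ℕ) : A12 := pm (getL 0 [0xba9876543210, 0xba9876510243, 0xba9876213540,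
  0xba9876240513, 0xba9852734601, 0xba9852701634, 0xba9825731604, 0xba9825704631, 0xba9830457126,
  0xba9803157426, 0xba9830127456, 0xba9803427156, 0xba9841375062, 0xba9814075362, 0xba9814372065,
  0xba9841072365] (i % 16))

instance pv_rho (i : ℕ) : PV (rho i).1 (pmc (getL 0 [0xba9876543210, 0xba9876510243, 0xba9876213540,
  0xba9876240513, 0xba9852734601, 0xba9852701634, 0xba9825731604, 0xba9825704631, 0xba9830457126,
  0xba9803157426, 0xba9830127456, 0xba9803427156, 0xba9841375062, 0xba9814075362, 0xba9814372065,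
  0xba9841072365] (i % 16))) := pvPm _

theorem rho_mod (i : ℕ) : rho (i % 16) = rho i := by rw [rho, Nat.mod_mod, rho]

/-- a word in the letters `f 0, f 1, …` -/
noncomputable def wd (f : List ℕ) (l : List ℕ) : A12 :=
  List.rec (motive := fun _ => A12) 1 (fun k _ ih => pm (getL 0 f k) * ih) l

instance pv_wd (f l : List ℕ) : PV (wd f l).1 (List.rec (motive := fun _ => ℕ) (onec 12)
    (fun k _ ih => mulc 12 (pmc (getL 0 f k)) ih) l) := ⟨by
  induction l with
  | nil => exact onec_enc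
  | cons k l ih =>
    have : PV (wd f l).1 _ := ⟨ih⟩
    exact (pvSMul (pm (getL 0 f k)) (wd f l)).h⟩

/-- the letters `w3, w4, v1, y2, yy, a1, (0 1)(6 7), (0 6)(1 7)(2 8)(3 9)(4 10)(5 11)`; they generate
the stabiliser of the partition `{0..5}, {6..11}` -/
def lA : List ℕ := [0xba9687543210, 0x9ba876543210, 0xab8976543210, 0xba9876435021, 0xba9876354021,
  0xba9876510243, 0xba9867543201, 0x543210ba9876]

/-- their images under conjugation by `g` -/
def lB : List ℕ := [0xba9876435021, 0xba9876354021, 0xba9876510243, 0xba9768543210, 0x9ba876543210,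
  0xab8976543210, 0x7689ba210543, 0x201453786b9a]

variable {G : Type*} [Group G]

/-- the subgroup `A₁₂` and the twisting element -/
structure AD (α : A12 →* G) (g : G) : Prop where
  inj : Function.Injective α
  cw : ∀ h, Commute h (α w4) → h ∈ α.range
  nz : ¬ IsConj (α w4) (α (w4 * yy))
  g4 : g * α w4 * g⁻¹ = α yy
  g3 : g * α w3 * g⁻¹ = α y2
  g2 : g * g = α tt

structure AE (α : A12 →* G) (g : G) : Prop extends AD α g where
  gv : g * α v1 * g⁻¹ = α a1

/-- conjugation by `g` maps `x` to `y` -/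
def Th (α : A12 →* G) (g : G) (x y : A12) : Prop := g * α x * g⁻¹ = α y

variable {α : A12 →* G} {g : G} {x y x' y' : A12}

theorem Th.one : Th α g 1 1 := by simp [Th]

theorem Th.mul (a : Th α g x y) (b : Th α g x' y') : Th α g (x * x') (y * y') := by
  rw [Th, map_mul, map_mul, ← a, ← b]; group

theorem Th.inv (a : Th α g x y) : Th α g x⁻¹ y⁻¹ := by
  rw [Th, map_inv, map_inv, ← a]; group

theorem Th.congr (a : Th α g x y) (e : x' = x ∧ y' = y) : Th α g x' y' := e.1 ▸ e.2 ▸ a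

theorem Th.symm' (a : Th α g x y) : g⁻¹ * α y * g = α x := by rw [← a]; group

theorem Th.wd {l : List ℕ} (h : ∀ k ∈ l, Th α g (pm (getL 0 lA k)) (pm (getL 0 lB k))) :
    Th α g (wd lA l) (wd lB l) := by
  induction l with
  | nil => exact .one
  | cons k l ih => exact (h k (by simp)).mul (ih fun j a => h j (by simp [a]))

namespace AD

variable (h : AD α g)
include h

theorem comm {x y : A12} : Commute (α x) (α y) ↔ Commute x y :=
  ⟨fun e => h.inj (by simpa using e.eq), fun e => e.map α⟩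

theorem gt : Commute g (α tt) := h.g2 ▸ (Commute.refl g).mul_right (.refl g)

/-- apply `g` twice -/
theorem sq (a : Th α g x y) : Th α g y (tt * x * tt⁻¹) := by
  rw [Th, ← a, map_mul, map_mul, map_inv, ← h.g2]; group

theorem exists_AE : ∃ g, AE α g := by
  have c : ∀ {x y}, Th α g x y → Commute v1 x → Commute (g * α v1 * g⁻¹) (α y) := fun a e =>
    a ▸ (e.map α).conj g
  have t4 : Th α g yy w4 := (h.sq h.g4).congr pd!
  have t3 : Th α g y2 w3⁻¹ := (h.sq h.g3).congr pd!
  obtain ⟨v, hv⟩ := h.cw _ (c t4 pd!)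
  have tv : Th α g v1 v := hv.symm
  have e : ∀ {x y}, Th α g x y → x = 1 → y = 1 := fun a e => h.inj (by
    rw [← a, e]; simp)
  obtain ⟨k, hk, a⟩ := (pd! : ∀ v : A12, Commute v w4 ∧ Commute v w3⁻¹ ∧ Commute v tt →
    v * v = 1 → v * yy * (v * yy) * (v * yy) = 1 → v ≠ 1 → ∃ k ∈ [1, yy, yy⁻¹], k * v * k⁻¹ = a1) v
    ⟨h.comm.1 (hv ▸ c t4 pd!), h.comm.1 (hv ▸ c t3 pd!), h.comm.1 (hv ▸ c (x := tt)
      (mul_inv_eq_iff_eq_mul.2 h.gt.eq) pd!)⟩ (e (tv.mul tv) pd!)
    (e (((tv.mul h.g4).mul (tv.mul h.g4)).mul (tv.mul h.g4)) pd!) fun b => (pd! : v1 ≠ 1) (h.inj (by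
      rw [← tv.symm', b]; simp))
  have f : ∀ {x y}, Th α g x y → ∀ {y'}, k⁻¹ * x * k = x ∧ k * y * k⁻¹ = y' →
      α k * g * (α k)⁻¹ * α x * (α k * g * (α k)⁻¹)⁻¹ = α y' := fun {x y} b _ d => by
    rw [← d.2, map_mul, map_mul, ← b]
    conv_rhs => rw [← d.1]
    simp [mul_assoc]
  have := (pd! : ∀ k ∈ [1, yy, yy⁻¹], (k⁻¹ * w4 * k = w4 ∧ k * yy * k⁻¹ = yy) ∧
    (k⁻¹ * w3 * k = w3 ∧ k * y2 * k⁻¹ = y2) ∧ k⁻¹ * v1 * k = v1 ∧ k * tt * k⁻¹ = tt) k hk
  refine ⟨α k * g * (α k)⁻¹, ⟨h.inj, h.cw, h.nz, f h.g4 this.1, f h.g3 this.2.1, ?_⟩,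
    f tv ⟨this.2.2.1, a⟩⟩
  rw [← this.2.2.2, map_mul, map_mul, map_inv, ← h.g2]; group

end AD

namespace AE

variable (h : AE α g)
include h

theorem th6 : ∀ k < 6, Th α g (pm (getL 0 lA k)) (pm (getL 0 lB k)) := by
  intro k a
  interval_cases k
  exacts [h.g3, h.g4, h.gv, (h.sq h.g3).congr pd!, (h.sq h.g4).congr pd!, (h.sq h.gv).congr pd!]

theorem th_norm {k k' : A12} (L : List (List ℕ)) (e' : ∀ i < 6, ∀ j ∈ getL [] L i, j < 6) (e : ∀ i < 6,
    k * pm (getL 0 lA i) * k⁻¹ = wd lA (getL [] L i) ∧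
      k' * pm (getL 0 lB i) * k'⁻¹ = wd lB (getL [] L i)) : Th α g k k' := by
  have c : ∀ i < 6, Commute ((α k')⁻¹ * (g * α k * g⁻¹)) (α (pm (getL 0 lB i))) := fun i a => by
    have b := (Th.wd fun j d => h.th6 j (e' i a j d)).congr (e i a)
    rw [Th, map_mul, map_mul, map_mul, map_mul, map_inv, map_inv] at b
    rw [Commute, SemiconjBy, ← mul_inv_eq_iff_eq_mul]
    conv_lhs => rw [← h.th6 i a]
    rw [← mul_right_inj (α k'), ← mul_left_inj (α k')⁻¹, ← b]; group
  obtain ⟨u, hu⟩ := h.cw _ (c 4 (by norm_num))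
  simp only [← hu, h.comm] at c
  rw [(pd! : ∀ u : A12, Commute u (a1 * yy * y2) ∧ Commute u (w3 * v1) ∧ Commute u (yy * w4) →
    u = 1) u ⟨((c 2 (by norm_num)).mul_right (c 1 (by norm_num))).mul_right (c 0 (by norm_num)),
    (pd! : (pm (getL 0 lB 3))⁻¹ = w3) ▸ (c 3 (by norm_num)).inv_right.mul_right (c 5 (by norm_num)),
    (c 1 (by norm_num)).mul_right (c 4 (by norm_num))⟩, map_one, eq_inv_mul_iff_mul_eq,
    mul_one] at hu
  exact hu.symm

/-- conjugation by `g` on the stabiliser of the partition, by words -/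
theorem th (l : List ℕ) : Th α g (wd lA l) (wd lB l) := Th.wd fun k _ => by
  rcases lt_or_ge k 6 with a | a
  · exact h.th6 k a
  obtain ⟨k, rfl⟩ := Nat.exists_eq_add_of_le' a
  rcases k with _ | _ | k
  · exact h.th_norm [[0, 0], [1], [2], [4, 4], [3, 3], [3, 5, 3, 3, 5, 3]] (by decide +kernel) pd!
  · exact h.th_norm [[3, 3, 4, 4], [3, 4, 4], [3, 3, 4, 5, 3, 4, 5], [0, 1, 1], [0, 1],
      [0, 2, 0, 2, 1, 2, 0]] (by decide +kernel) pd!
  · exact Th.one.congr ⟨(pd! : pm 0 = 1), (pd! : pm 0 = 1)⟩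

/-- usage: `h.th' word pd!` -/
theorem th' (l : List ℕ) (e : x = wd lA l ∧ y = wd lB l) : Th α g x y := (h.th l).congr e

theorem ga1 : Th α g a1 v1 := h.th' [5] pd!

theorem ga2 : Th α g a2 v2 := h.th' [4, 5, 4, 4] pd!

theorem gv2 : Th α g v2 a2 := h.th' [1, 2, 1, 1] pd!

theorem gyy : Th α g yy w4 := h.th' [4] pd!

theorem gy2 : Th α g y2 w3⁻¹ := h.th' [3] pd!

theorem gtt : Th α g tt tt := mul_inv_eq_iff_eq_mul.2 h.gt.eq

end AE

/-- coordinates in the extraspecial group -/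
noncomputable def psi (α : A12 →* G) (g : G) (i : ℕ) : G :=
  α (rho i) * (g * α (rho (i / 16)) * g⁻¹)

theorem AE.psi16 (h : AE α g) : psi α g 16 = α v1 := by
  rw [psi, (pd! : rho 16 = 1), (pd! : rho (16 / 16) = a1), h.ga1, map_one, one_mul]

theorem AE.psi32 (h : AE α g) : psi α g 32 = α v2 := by
  rw [psi, (pd! : rho 32 = 1), (pd! : rho (32 / 16) = a2), h.ga2, map_one, one_mul]

end Cfsg.Agent.HNL
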