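import Mathlib

/-! The four-dimensional symplectic module of `SL₂(5)` over `𝔽₃`.

STUB (captain helper8, S3340).  Pure linear algebra (make `W` a `ZMod 3`-module by `AddCommGroup.zmodModule`, finrank 4 by
`Module.natCard_eq_pow_finrank`, cf. L43/Ex `key`; or argue with cardinalities of additive subgroups; cf. also L43/Mod `lin`).
Let `N = σ - 1`; `N³ = σ³ - 1 = 0` in characteristic 3.  `γ σ γ⁻¹ = σ⁻¹` (`γ⁻¹ = -γ`), so the images of `N` and `N²` and the kernel of `N`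
are `γ`-invariant.  A non-zero `γ`-invariant subspace contains `x, γ x` independent (`γ x = k x` gives `k² = -1`), so has dimension
`≥ 2`.  `dim range N² ≤ 1` (`range N ≤ ker N²`, `range N² ≤ ker N`; rank–nullity: if `dim range N² ≥ 2` then
`dim range N ≥ 2`, `dim ker N ≥ 2` force `dim range N = 2 = dim range N²`, so `N` is injective on `range N = range N² ≤ ker N`);
hence `N² = 0`.  Then `range N ≤ ker N`, `range N ∋ v ≠ 0`, so `ℓ = ker N = range N = ⟨v, γ v⟩` has dimension 2 and is isotropic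
(`ω (N x) w = 0` for `σ w = w`).  The same for `τ`, `N' = τ - 1 ≠ 0` (else `σ⁵ = -1`, `σ³ = 1`), `ℓ' = ker N'`; `ℓ ∩ ℓ' = 0` since
`(σ τ)⁵ = -1`; so `W = ℓ ⊕ ℓ'` and `ω` pairs `ℓ, ℓ'` perfectly.  `e1 = v`, `e2 = γ v`, `f1, f2 ∈ ℓ'` the dual basis; `γ f1 = f2`,
`γ f2 = -f1`.  `ω (N x) y` is symmetric in `x, y`, and `γ N = -N γ`; with `N a = v`, `ω a v = 0` this gives `N f1 = β e2`,
`N f2 = β e1`, `β = ±1`.  Likewise `N' e1 = p f1 + q f2`, `N' e2 = q f1 - p f2`.  Applying `(σ τ)⁵ = -1` to `e1` (coordinates,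
`decide` over `β ≠ 0, p, q : ZMod 3`, e.g. with explicit 4×4 matrices) gives `q = 0`, `p ≠ 0`.  Replacing `(e2, f2)` by
`(-e2, -f2)` changes `β` to `-β` and keeps `p`; swapping the indices changes `p` to `-p` and keeps `β`. -/

set_option autoImplicit false
set_option linter.unusedSimpArgs false

namespace Cfsg.Agent.HNL

namespace Lin

open Module

variable {W : Type*} [AddCommGroup W] [Module (ZMod 3) W] {γ ρ σ τ : W →ₗ[ZMod 3] W}
  {U : Submodule (ZMod 3) W} {x y : W}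

theorem three (x : W) : x + x + x = 0 := by
  have : ((1 : ZMod 3) + 1 + 1) • x = 0 := by rw [show (1 : ZMod 3) + 1 + 1 = 0 from rfl, zero_smul]
  simpa [add_smul] using this

theorem d1' : ∀ s t : ZMod 3, s * s + t * t = 0 → s = 0 ∧ t = 0 := by decide

theorem d2' : ∀ s t : ZMod 3, ¬ (s = 0 ∧ t = 0) →
    ∃ α β : ZMod 3, α * s - β * t = 1 ∧ α * t + β * s = 0 := by decide

theorem d3' : ∀ t x1 x2 : ZMod 3, t * x2 - 1 = 0 → -(t * x1) = 0 → x1 = 0 ∧ (x2 = 1 ∨ x2 = -1) := by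
  decide

theorem li (g2 : ∀ x, γ (γ x) = -x) (x0 : x ≠ 0) : LinearIndependent (ZMod 3) ![x, γ x] := by
  refine LinearIndependent.pair_iff.2 fun s t h => ?_
  have h' := congrArg γ h
  rw [map_add, map_smul, map_smul, g2, map_zero] at h'
  have k : (s * s + t * t) • x = 0 := by linear_combination (norm := module) s • h - t • h'
  haveI : Fact (Nat.Prime 3) := ⟨by norm_num⟩
  exact d1' s t ((smul_eq_zero.1 k).resolve_right x0)

theorem span_le (hU : ∀ x ∈ U, γ x ∈ U) (hx : x ∈ U) :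
    Submodule.span (ZMod 3) (Set.range ![x, γ x]) ≤ U := by
  rw [Submodule.span_le]
  rintro _ ⟨i, rfl⟩
  fin_cases i
  exacts [hx, hU x hx]

variable [Module.Finite (ZMod 3) W]

theorem two_le (g2 : ∀ x, γ (γ x) = -x) (hU : ∀ x ∈ U, γ x ∈ U) (h0 : U ≠ ⊥) :
    2 ≤ finrank (ZMod 3) U := by
  haveI : Fact (Nat.Prime 3) := ⟨by norm_num⟩
  obtain ⟨x, hx, x0⟩ := Submodule.exists_mem_ne_zero_of_ne_bot h0
  have := Submodule.finrank_mono (span_le hU hx)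
  rwa [finrank_span_eq_card (li g2 x0), Fintype.card_fin] at this

theorem span_of (g2 : ∀ x, γ (γ x) = -x) (hU : ∀ x ∈ U, γ x ∈ U) (h2 : finrank (ZMod 3) U = 2)
    (hx : x ∈ U) (x0 : x ≠ 0) (hy : y ∈ U) : ∃ s t : ZMod 3, y = s • x + t • γ x := by
  haveI : Fact (Nat.Prime 3) := ⟨by norm_num⟩
  rw [← Submodule.eq_of_le_of_finrank_eq (span_le hU hx)
    (by rw [finrank_span_eq_card (li g2 x0), Fintype.card_fin, h2]),
    Submodule.mem_span_range_iff_exists_fun] at hy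
  obtain ⟨c, rfl⟩ := hy
  exact ⟨c 0, c 1, by simp⟩

/-- the fixed space -/
def fx (ρ : W →ₗ[ZMod 3] W) : Submodule (ZMod 3) W := LinearMap.ker (ρ - LinearMap.id)

omit [Module.Finite (ZMod 3) W] in
theorem mem_fx : x ∈ fx ρ ↔ ρ x = x := by simp [fx, sub_eq_zero]

theorem str (d4 : finrank (ZMod 3) W = 4) (g2 : ∀ x, γ (γ x) = -x) (s3 : ∀ x, ρ (ρ (ρ x)) = x)
    (sg : ∀ x, ρ (γ (ρ x)) = γ x) (ne : ∃ x, ρ x ≠ x) :
    finrank (ZMod 3) (fx ρ) = 2 ∧ (∀ x ∈ fx ρ, γ x ∈ fx ρ) ∧ (∀ x, ρ x - x ∈ fx ρ) ∧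
      (∀ x ∈ fx ρ, ∃ y, ρ y - y = x) ∧ ∀ x, ρ (γ x) - γ x = -γ (ρ x - x) := by
  haveI : Fact (Nat.Prime 3) := ⟨by norm_num⟩
  have a1 : ∀ x, γ (ρ x) = ρ (ρ (γ x)) := fun x => by rw [← s3 (γ (ρ x)), sg]
  have a2 : ∀ x, ρ (γ x) = γ (ρ (ρ x)) := fun x => by rw [← sg (ρ (ρ x)), s3]
  set N : W →ₗ[ZMod 3] W := ρ - LinearMap.id with hN
  have N1 : ∀ x, N x = ρ x - x := fun x => rfl
  have i0 : ∀ x ∈ fx ρ, γ x ∈ fx ρ := fun x hx => by
    rw [mem_fx] at hx ⊢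
    rw [a2, hx, hx]
  have b : ∀ x, γ (N x) = N (ρ (γ x) + γ x) := fun x => by
    simp only [N1, map_sub, map_add, a1]; abel
  have i1 : ∀ x ∈ LinearMap.range N, γ x ∈ LinearMap.range N := by
    rintro _ ⟨x, rfl⟩
    exact ⟨_, (b x).symm⟩
  have i2 : ∀ x ∈ LinearMap.range (N ∘ₗ N), γ x ∈ LinearMap.range (N ∘ₗ N) := by
    rintro _ ⟨x, rfl⟩
    refine ⟨ρ (ρ (γ x) + γ x) + (ρ (γ x) + γ x), ?_⟩
    simp only [LinearMap.comp_apply, N1, map_sub, map_add, a1]; abel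
  have rk : finrank (ZMod 3) (LinearMap.range N) + finrank (ZMod 3) (fx ρ) = 4 :=
    d4 ▸ LinearMap.finrank_range_add_finrank_ker N
  have l1 : LinearMap.range (N ∘ₗ N) ≤ LinearMap.range N := LinearMap.range_comp_le_range _ _
  have l2 : LinearMap.range (N ∘ₗ N) ≤ fx ρ := by
    rintro _ ⟨x, rfl⟩
    simp only [mem_fx, LinearMap.comp_apply, N1, map_sub, s3]
    linear_combination (norm := abel) three (ρ x) - three (ρ (ρ x))
  have l3 : LinearMap.range N ≤ fx ρ := by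
    by_cases h : LinearMap.range (N ∘ₗ N) = ⊥
    · rintro _ ⟨x, rfl⟩
      have : N (N x) ∈ LinearMap.range (N ∘ₗ N) := ⟨x, rfl⟩
      rwa [h] at this
    · have := two_le g2 i2 h
      have := Submodule.finrank_mono l1
      have := Submodule.finrank_mono l2
      rwa [← Submodule.eq_of_le_of_finrank_eq l1 (by omega)]
  have h1 : 2 ≤ finrank (ZMod 3) (LinearMap.range N) := two_le g2 i1 fun h => by
    obtain ⟨x, hx⟩ := ne
    have : N x ∈ LinearMap.range N := ⟨x, rfl⟩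
    rw [h, Submodule.mem_bot, N1, sub_eq_zero] at this
    exact hx this
  have := Submodule.finrank_mono l3
  have e := Submodule.eq_of_le_of_finrank_eq l3 (by omega)
  refine ⟨by omega, i0, fun x => l3 ⟨x, rfl⟩, fun x hx => by rwa [← e] at hx, fun x => ?_⟩
  have := mem_fx.1 (l3 ⟨γ x, rfl⟩)
  simp only [N1, map_sub] at this
  simp only [map_sub, a1]
  linear_combination (norm := abel) this + three (ρ (γ x)) - three (γ x)

/-- the action of `σ τ` in coordinates -/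
def T (β p q : ZMod 3) (w : ZMod 3 × ZMod 3 × ZMod 3 × ZMod 3) : ZMod 3 × ZMod 3 × ZMod 3 × ZMod 3 :=
  (w.1 + β * (w.2.2.2 + q * w.1 - p * w.2.1), w.2.1 + β * (w.2.2.1 + p * w.1 + q * w.2.1),
    w.2.2.1 + p * w.1 + q * w.2.1, w.2.2.2 + q * w.1 - p * w.2.1)

theorem T_dec : ∀ β p q : ZMod 3, β = 1 ∨ β = -1 →
    T β p q (T β p q (T β p q (T β p q (T β p q (1, 0, 0, 0))))) = (-1, 0, 0, 0) →
      q = 0 ∧ (p = 1 ∨ p = -1) := by decide

theorem core (d4 : finrank (ZMod 3) W = 4) {ω : W →+ W →+ ZMod 3} (alt : ∀ x, ω x x = 0)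
    (nd : ∀ x, (∀ y, ω x y = 0) → x = 0) (oσ : ∀ x y, ω (σ x) (σ y) = ω x y)
    (oτ : ∀ x y, ω (τ x) (τ y) = ω x y) (oγ : ∀ x y, ω (γ x) (γ y) = ω x y)
    (s3 : ∀ x, σ (σ (σ x)) = x) (t3 : ∀ x, τ (τ (τ x)) = x) (g2 : ∀ x, γ (γ x) = -x)
    (sg : ∀ x, σ (γ (σ x)) = γ x) (tg : ∀ x, τ (γ (τ x)) = γ x)
    (st : ∀ x, σ (τ (σ (τ (σ (τ (σ (τ (σ (τ x))))))))) = -x) {v a : W} (v0 : v ≠ 0)
    (σv : σ v = v) (σa : σ a = a + v) (av : ω a v = 0) :
    ∃ e1 f1 e2 f2 : W, (e1 = v ∨ e1 = γ v) ∧ ω e1 f1 = 1 ∧ ω e2 f2 = 1 ∧ ω e1 e2 = 0 ∧ ω e1 f2 = 0 ∧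
      ω f1 e2 = 0 ∧ ω f1 f2 = 0 ∧ σ e1 = e1 ∧ σ e2 = e2 ∧ σ f1 = f1 + e2 ∧ σ f2 = f2 + e1 ∧
      τ f1 = f1 ∧ τ f2 = f2 ∧ τ e1 = e1 + f1 ∧ τ e2 = e2 - f2 := by
  haveI : Fact (Nat.Prime 3) := ⟨by norm_num⟩
  have sk : ∀ x y, ω x y = -ω y x := fun x y => by
    have := alt (x + y)
    simp only [map_add, AddMonoidHom.add_apply, alt] at this
    linear_combination this
  have sr : ∀ (c : ZMod 3) x y, ω x (c • y) = c * ω x y := fun c x y => ZMod.map_smul (ω x) c y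
  have sl : ∀ (c : ZMod 3) x y, ω (c • x) y = c * ω x y := fun c x y => by
    rw [sk, sr, sk y x]; ring
  have dis : ∀ x, σ x = x → τ x = x → x = 0 := fun x h1 h2 => by
    have := st x
    simp only [h1, h2] at this
    linear_combination (norm := abel) three x - this
  obtain ⟨d1, i1, n1, r1, c1⟩ := str d4 g2 s3 sg ⟨a, by rw [σa]; simpa using v0⟩
  obtain ⟨d2, i2, n2, r2, c2⟩ := str d4 g2 t3 tg (by
    by_contra! h
    exact v0 (dis v σv (h v)))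
  have iso : ∀ {ρ : W →ₗ[ZMod 3] W}, (∀ x y, ω (ρ x) (ρ y) = ω x y) → (∀ x ∈ fx ρ, ∃ y, ρ y - y = x) →
      ∀ x ∈ fx ρ, ∀ y ∈ fx ρ, ω x y = 0 := fun o r x hx y hy => by
    obtain ⟨w, rfl⟩ := r x hx
    rw [map_sub, AddMonoidHom.sub_apply, ← o w y, mem_fx.1 hy, sub_self]
  have top : ∀ w, ∃ x ∈ fx σ, ∃ y ∈ fx τ, x + y = w := fun w => by
    have h := Submodule.finrank_sup_add_finrank_inf_eq (fx σ) (fx τ)
    rw [show fx σ ⊓ fx τ = ⊥ from (Submodule.eq_bot_iff _).2 fun x hx =>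
      dis x (mem_fx.1 hx.1) (mem_fx.1 hx.2), finrank_bot, d1, d2] at h
    rw [← Submodule.mem_sup, Submodule.eq_top_of_finrank_eq (S := fx σ ⊔ fx τ) (by omega)]
    trivial
  have vm : v ∈ fx σ := mem_fx.2 σv
  obtain ⟨f, fm, e11, e21⟩ : ∃ f ∈ fx τ, ω v f = 1 ∧ ω (γ v) f = 0 := by
    obtain ⟨y, ym, y0⟩ := Submodule.exists_mem_ne_zero_of_ne_bot (p := fx τ) fun h => by
      rw [h, finrank_bot] at d2; omega
    have h : ¬ (ω v y = 0 ∧ ω (γ v) y = 0) := fun h => y0 (nd y fun w => by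
      obtain ⟨x, hx, x', hx', rfl⟩ := top w
      obtain ⟨s, t, rfl⟩ := span_of g2 i1 d1 vm v0 hx
      rw [map_add, map_add, sr, sr, iso oτ r2 y ym x' hx', sk y v, sk y, h.1, h.2]; ring)
    obtain ⟨α, β, h1, h2⟩ := d2' _ _ h
    refine ⟨α • y + β • γ y, add_mem (Submodule.smul_mem _ _ ym) (Submodule.smul_mem _ _ (i2 y ym)), ?_, ?_⟩
    · rw [map_add, sr, sr, ← oγ v (γ y), g2, map_neg]; linear_combination h1
    · rw [map_add, sr, sr, oγ]; exact h2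
  have f0 : f ≠ 0 := by rintro rfl; simp at e11
  have e12 : ω v (γ f) = 0 := by rw [← oγ, g2, map_neg, e21, neg_zero]
  have e22 : ω (γ v) (γ f) = 1 := by rw [oγ, e11]
  have ee : ω v (γ v) = 0 := iso oσ r1 _ vm _ (i1 _ vm)
  have ff : ω f (γ f) = 0 := iso oτ r2 _ fm _ (i2 _ fm)
  have σv' : σ (γ v) = γ v := mem_fx.1 (i1 _ vm)
  have τf : τ f = f := mem_fx.1 fm
  have τf' : τ (γ f) = γ f := mem_fx.1 (i2 _ fm)
  -- the action of `σ` on `f`, `γ f`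
  obtain ⟨β, hβ, σf, σf'⟩ : ∃ β : ZMod 3, (β = 1 ∨ β = -1) ∧ σ f = f + β • γ v ∧
      σ (γ f) = γ f + β • v := by
    obtain ⟨x1, x2, h1⟩ := span_of g2 i1 d1 vm v0 (n1 f)
    have h2 := c1 f
    rw [h1, map_add, map_smul, map_smul, g2] at h2
    obtain ⟨l, hl, y, hy, rfl⟩ := top a
    obtain ⟨s, t, rfl⟩ := span_of g2 i2 d2 fm f0 hy
    rw [map_add, map_add, AddMonoidHom.add_apply, AddMonoidHom.add_apply, sl, sl, iso oσ r1 l hl v vm,
      sk f, sk (γ f), e11, e12] at av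
    have s0 : s = 0 := by linear_combination -av
    subst s0
    rw [map_add, map_add, map_smul, map_smul, mem_fx.1 hl] at σa
    have h3 : (t * x2 - 1) • v + (-(t * x1)) • γ v = 0 := by
      linear_combination (norm := module) σa - t • h2
    obtain ⟨h4, h5⟩ := LinearIndependent.pair_iff.1 (li g2 v0) _ _ h3
    obtain ⟨rfl, h6⟩ := d3' _ _ _ h4 h5
    exact ⟨x2, h6, by linear_combination (norm := module) h1, by linear_combination (norm := module) h2⟩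
  obtain ⟨p, q, τv, τv'⟩ : ∃ p q : ZMod 3, τ v = v + p • f + q • γ f ∧
      τ (γ v) = γ v + q • f - p • γ f := by
    obtain ⟨p, q, h1⟩ := span_of g2 i2 d2 fm f0 (n2 v)
    have h2 := c2 v
    rw [h1, map_add, map_smul, map_smul, g2] at h2
    exact ⟨p, q, by linear_combination (norm := module) h1, by linear_combination (norm := module) h2⟩
  obtain ⟨rfl, hp⟩ : q = 0 ∧ (p = 1 ∨ p = -1) := by
    refine T_dec β p q hβ ?_
    let c : ZMod 3 × ZMod 3 × ZMod 3 × ZMod 3 → W := fun w =>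
      w.1 • v + w.2.1 • γ v + w.2.2.1 • f + w.2.2.2 • γ f
    have h1 : ∀ w, σ (τ (c w)) = c (T β p q w) := fun w => by
      simp only [c, T, map_add, map_sub, map_smul, τv, τv', τf, τf', σv, σv', σf, σf']
      module
    have h2 := st (c (1, 0, 0, 0))
    rw [h1, h1, h1, h1, h1] at h2
    generalize T β p q (T β p q (T β p q (T β p q (T β p q (1, 0, 0, 0))))) = w at h2
    obtain ⟨w1, w2, w3, w4⟩ := w
    have k := fun y => congrArg (ω y) h2
    have k1 := k f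
    have k2 := k (γ f)
    have k3 := k v
    have k4 := k (γ v)
    simp only [c, map_add, map_neg, sr, alt, sk f v, sk f (γ v), sk (γ f) v, sk (γ f) (γ v), sk (γ f) f,
      sk (γ v) v, e11, e12, e21, e22, ee, ff] at k1 k2 k3 k4
    simp only [Prod.mk.injEq]
    exact ⟨by linear_combination -k1, by linear_combination -k2, by linear_combination k3,
      by linear_combination k4⟩
  have fe : ω f (γ v) = 0 := by rw [sk, e21, neg_zero]
  have fe' : ω (γ f) v = 0 := by rw [sk, e12, neg_zero]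
  have ee' : ω (γ v) v = 0 := by rw [sk, ee, neg_zero]
  have ff' : ω (γ f) f = 0 := by rw [sk, ff, neg_zero]
  rcases hβ with rfl | rfl <;> rcases hp with rfl | rfl
  · exact ⟨v, f, γ v, γ f, .inl rfl, by
      simp [e11, e12, e21, e22, ee, ff, fe, fe', ee', ff', σv, σv', σf, σf', τv, τv', τf, τf']⟩
  · exact ⟨γ v, γ f, v, f, .inr rfl, by
      simp [e11, e12, e21, e22, ee, ff, fe, fe', ee', ff', σv, σv', σf, σf', τv, τv', τf, τf', sub_eq_add_neg]⟩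
  · exact ⟨v, f, -γ v, -γ f, .inl rfl, by
      simp [e11, e12, e21, e22, ee, ff, fe, fe', ee', ff', σv, σv', σf, σf', τv, τv', τf, τf', sub_eq_add_neg,
        add_comm]⟩
  · exact ⟨γ v, γ f, -v, -f, .inr rfl, by
      simp [e11, e12, e21, e22, ee, ff, fe, fe', ee', ff', σv, σv', σf, σf', τv, τv', τf, τf', sub_eq_add_neg,
        add_comm]⟩

end Lin

theorem lin {W : Type*} [AddCommGroup W] [Finite W] (cW : Nat.card W = 81) (w3 : ∀ w : W, 3 • w = 0)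
    {ω : W →+ W →+ ZMod 3} (alt : ∀ x, ω x x = 0) (nd : ∀ x, (∀ y, ω x y = 0) → x = 0)
    {σ τ γ : Module.End ℤ W} (oσ : ∀ x y, ω (σ x) (σ y) = ω x y) (oτ : ∀ x y, ω (τ x) (τ y) = ω x y)
    (oγ : ∀ x y, ω (γ x) (γ y) = ω x y) (s3 : σ ^ 3 = 1) (t3 : τ ^ 3 = 1) (g2 : γ * γ = -1)
    (sg : σ * γ * σ = γ) (tg : τ * γ * τ = γ) (st : (σ * τ) ^ 5 = -1) {v a : W} (v0 : v ≠ 0)
    (σv : σ v = v) (σa : σ a = a + v) (av : ω a v = 0) :
    ∃ e1 f1 e2 f2 : W, (e1 = v ∨ e1 = γ v) ∧ ω e1 f1 = 1 ∧ ω e2 f2 = 1 ∧ ω e1 e2 = 0 ∧ ω e1 f2 = 0 ∧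
      ω f1 e2 = 0 ∧ ω f1 f2 = 0 ∧ σ e1 = e1 ∧ σ e2 = e2 ∧ σ f1 = f1 + e2 ∧ σ f2 = f2 + e1 ∧
      τ f1 = f1 ∧ τ f2 = f2 ∧ τ e1 = e1 + f1 ∧ τ e2 = e2 - f2 := by
  letI : Module (ZMod 3) W := AddCommGroup.zmodModule w3
  haveI : Fact (Nat.Prime 3) := ⟨by norm_num⟩
  have d4 : Module.finrank (ZMod 3) W = 4 := by
    have := Module.natCard_eq_pow_finrank (K := ZMod 3) (V := W)
    rw [cW, Nat.card_zmod] at this
    exact Nat.pow_right_injective (a := 3) (by norm_num) (this.symm.trans (by norm_num))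
  exact Lin.core (σ := σ.toAddMonoidHom.toZModLinearMap 3) (τ := τ.toAddMonoidHom.toZModLinearMap 3)
    (γ := γ.toAddMonoidHom.toZModLinearMap 3) d4 alt nd oσ oτ oγ (LinearMap.congr_fun s3)
    (LinearMap.congr_fun t3) (LinearMap.congr_fun g2) (LinearMap.congr_fun sg) (LinearMap.congr_fun tg)
    (LinearMap.congr_fun st) v0 σv σa av

end Cfsg.Agent.HNL
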